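import Mathlib
import Cfsg.Agent.Lib.Helper73.UP.Defs

set_option autoImplicit false

/-! Project UP (S3575), package DIV. -/

namespace Cfsg.Agent.Lib.Helper85.UP

open Cfsg.Agent.Lib.Helper73.UP

/-- Package DIV: a prime dividing the number of uniform partitions is at most `a * b`. -/
theorem lemDiv : LemDiv := by
  intro a b r ha hr hdvd
  have ha0 : a ≠ 0 := by omega
  have h1 := Nat.uniformBell_mul_eq b ha0
  have h2 := Nat.uniformBell_eq_div b ha0
  rw [mul_comm b a] at h2
  rw [← h2] at hdvd
  have h3 : r ∣ (b * a).factorial := by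
    rw [← h1]
    exact Dvd.dvd.mul_right (Dvd.dvd.mul_right hdvd _) _
  have h4 := (Nat.Prime.dvd_factorial hr).mp h3
  rw [mul_comm] at h4
  exact h4

end Cfsg.Agent.Lib.Helper85.UP
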