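import Mathlib
import Cfsg.Agent.Lib.Helper73.UP.Defs

set_option autoImplicit false

/-! Project UP (S3575), package MBASE. -/

namespace Cfsg.Agent.Lib.Helper85.UP

open Cfsg.Agent.Lib.Helper73.UP Equiv

/-- Package MBASE (3): the empty model. -/
theorem lemModelZero : LemModelZero := by
  intro r a
  refine ⟨Empty, Empty, inferInstance, inferInstance, 1, 1, id, ?_, ?_, ?_, ?_, ?_⟩
  · simp
  · intro y; exact y.elim
  · intro x; exact x.elim
  · simp
  · simp

/-- Package MBASE (2): one block carrying `c` cycles. -/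
theorem lemModelOne_of (hP : LemPerm) : LemModelOne := by
  intro r a c hr hca
  have key : ∃ σ : Perm (Fin a), σ ^ r = 1 ∧ σ.support.card = r * c := by
    rcases Nat.eq_zero_or_pos c with hc | hc
    · subst hc
      exact ⟨1, by simp, by simp⟩
    · obtain ⟨σ, h1, h2⟩ := hP a r c hr hc hca
      exact ⟨σ, by rw [← h1]; exact pow_orderOf_eq_one σ, h2⟩
  obtain ⟨σ, h1, h2⟩ := key
  refine ⟨Fin a, Unit, inferInstance, inferInstance, σ, 1, fun _ => (), ?_, ?_, ?_, h1, ?_⟩
  · simp
  · intro y
    have : Nat.card {x : Fin a // (fun _ : Fin a => ()) x = y} = Nat.card (Fin a) :=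
      Nat.card_congr (Equiv.subtypeUnivEquiv (fun x => rfl))
    rw [this]; simp
  · intro x; rfl
  · rw [← h2, Nat.card_eq_fintype_card, Fintype.card_subtype]
    congr 1

/-- Package MBASE (1): `r` blocks permuted cyclically. -/
theorem lemModelShift : LemModelShift := by
  intro r a hr
  haveI : NeZero r := ⟨by omega⟩
  haveI : Fact (1 < r) := ⟨by omega⟩
  let σ : Perm (ZMod r × Fin a) := (Equiv.addRight (1 : ZMod r)).prodCongr (Equiv.refl (Fin a))
  have hσ : ∀ x : ZMod r × Fin a, σ x = (x.1 + 1, x.2) := fun x => rfl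
  have hpow : ∀ (n : ℕ) (x : ZMod r × Fin a), (σ ^ n) x = (x.1 + (n : ZMod r), x.2) := by
    intro n
    induction n with
    | zero => intro x; simp
    | succ n ih =>
      intro x
      rw [pow_succ', Equiv.Perm.mul_apply, ih, hσ]
      simp [add_comm, add_assoc]
  refine ⟨ZMod r × Fin a, ZMod r, inferInstance, inferInstance, σ,
    Equiv.addRight (1 : ZMod r), Prod.fst, ?_, ?_, ?_, ?_, ?_⟩
  · simp
  · intro y
    have e : {x : ZMod r × Fin a // x.1 = y} ≃ Fin a :=
      { toFun := fun x => x.1.2
        invFun := fun k => ⟨(y, k), rfl⟩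
        left_inv := by
          rintro ⟨⟨i, k⟩, h⟩
          simp only at h
          subst h
          rfl
        right_inv := fun k => rfl }
    rw [Nat.card_congr e]; simp
  · intro x; rfl
  · ext x
    · rw [hpow]; simp
    · rw [hpow]; simp
  · have e : {x : ZMod r × Fin a // σ x ≠ x} ≃ ZMod r × Fin a :=
      Equiv.subtypeUnivEquiv (fun x => by
        rw [hσ]
        intro h
        have h1 : x.1 + 1 = x.1 := congrArg Prod.fst h
        have h2 : (1 : ZMod r) = 0 := by simpa using h1
        exact one_ne_zero h2)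
    rw [Nat.card_congr e, Nat.card_prod]; simp

end Cfsg.Agent.Lib.Helper85.UP
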