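import Mathlib
import Cfsg.Agent.Lib.Helper73.UP.Defs

set_option autoImplicit false

/-! Project UP (S3575), package MSUM. -/

namespace Cfsg.Agent.Lib.Helper85.UP

open Cfsg.Agent.Lib.Helper73.UP Equiv

/-- Package MSUM: disjoint sums of models. -/
theorem lemModelSum : LemModelSum := by
  rintro r a b₁ b₂ j₁ j₂ ⟨X₁, Y₁, hX₁, hY₁, σ₁, π₁, f₁, hc₁, hf₁, hcomm₁, hpow₁, hmv₁⟩
    ⟨X₂, Y₂, hX₂, hY₂, σ₂, π₂, f₂, hc₂, hf₂, hcomm₂, hpow₂, hmv₂⟩
  refine ⟨X₁ ⊕ X₂, Y₁ ⊕ Y₂, inferInstance, inferInstance, Equiv.sumCongr σ₁ σ₂,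
    Equiv.sumCongr π₁ π₂, Sum.map f₁ f₂, ?_, ?_, ?_, ?_, ?_⟩
  · rw [Nat.card_sum, hc₁, hc₂]
  · rintro (y | y)
    · have e : {x : X₁ ⊕ X₂ // Sum.map f₁ f₂ x = Sum.inl y} ≃ {x : X₁ // f₁ x = y} :=
        { toFun := fun x => match x with
            | ⟨Sum.inl x, h⟩ => ⟨x, by simpa using h⟩
            | ⟨Sum.inr x, h⟩ => by simp at h
          invFun := fun x => ⟨Sum.inl x.1, by simp [x.2]⟩
          left_inv := by
            rintro ⟨x | x, h⟩
            · rfl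
            · simp at h
          right_inv := fun x => rfl }
      rw [Nat.card_congr e, hf₁]
    · have e : {x : X₁ ⊕ X₂ // Sum.map f₁ f₂ x = Sum.inr y} ≃ {x : X₂ // f₂ x = y} :=
        { toFun := fun x => match x with
            | ⟨Sum.inr x, h⟩ => ⟨x, by simpa using h⟩
            | ⟨Sum.inl x, h⟩ => by simp at h
          invFun := fun x => ⟨Sum.inr x.1, by simp [x.2]⟩
          left_inv := by
            rintro ⟨x | x, h⟩
            · simp at h
            · rfl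
          right_inv := fun x => rfl }
      rw [Nat.card_congr e, hf₂]
  · rintro (x | x)
    · simp [hcomm₁]
    · simp [hcomm₂]
  · have h : (Equiv.sumCongr σ₁ σ₂) ^ r = Equiv.sumCongr (σ₁ ^ r) (σ₂ ^ r) := by
      have := map_pow (Equiv.Perm.sumCongrHom X₁ X₂) (σ₁, σ₂) r
      simpa using this.symm
    rw [h, hpow₁, hpow₂]
    ext (x | x) <;> rfl
  · have e : {x : X₁ ⊕ X₂ // (Equiv.sumCongr σ₁ σ₂) x ≠ x} ≃
        {x : X₁ // σ₁ x ≠ x} ⊕ {x : X₂ // σ₂ x ≠ x} :=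
      Equiv.subtypeSum.trans (Equiv.sumCongr
        (Equiv.subtypeEquivRight (fun x => by simp))
        (Equiv.subtypeEquivRight (fun x => by simp)))
    haveI : Finite {x : X₁ // σ₁ x ≠ x} := inferInstance
    haveI : Finite {x : X₂ // σ₂ x ≠ x} := inferInstance
    rw [Nat.card_congr e, Nat.card_sum, hmv₁, hmv₂, mul_add]

end Cfsg.Agent.Lib.Helper85.UP
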