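import Mathlib
import Cfsg.Agent.Lib.Helper73.UP.Defs

set_option autoImplicit false

/-! Project UP (S3575), package PERM. -/

namespace Cfsg.Agent.Lib.Helper85.UP

open Cfsg.Agent.Lib.Helper73.UP Equiv

/-- Package PERM (1): permutations of prime order with a prescribed number of cycles. -/
theorem lemPerm : LemPerm := by
  intro n r j hr hj hjn
  have hex : ∃ σ : Perm (Fin n), σ.cycleType = Multiset.replicate j r := by
    rw [Equiv.Perm.exists_with_cycleType_iff]
    refine ⟨?_, ?_⟩
    · rw [Multiset.sum_replicate, Fintype.card_fin]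
      simpa [smul_eq_mul] using hjn
    · intro a ha
      rw [Multiset.eq_of_mem_replicate ha]
      exact hr.two_le
  obtain ⟨σ, hσ⟩ := hex
  have hcard : σ.support.card = r * j := by
    rw [← Equiv.Perm.sum_cycleType, hσ, Multiset.sum_replicate, smul_eq_mul, mul_comm]
  refine ⟨σ, ?_, hcard⟩
  have hne : σ ≠ 1 := by
    intro h
    rw [h] at hcard
    simp at hcard
    have := hr.pos
    rcases hcard.symm with h0 | h0 <;> omega
  have hpow : σ ^ r = 1 := by
    apply orderOf_dvd_iff_pow_eq_one.mp
    rw [← Equiv.Perm.lcm_cycleType, hσ]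
    apply Multiset.lcm_dvd.mpr
    intro a ha
    rw [Multiset.eq_of_mem_replicate ha]
  haveI : Fact r.Prime := ⟨hr⟩
  exact orderOf_eq_prime hpow hne

/-- Package PERM (2): the support of a permutation of prime order. -/
theorem lemSupp : LemSupp := by
  intro n r σ hr hσ
  have hp : (orderOf σ).Prime := by rw [hσ]; exact hr
  obtain ⟨k, hk⟩ := Equiv.Perm.cycleType_prime_order hp
  have hcard : σ.support.card = r * (k + 1) := by
    rw [← Equiv.Perm.sum_cycleType, hk, Multiset.sum_replicate, smul_eq_mul, hσ, mul_comm]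
  refine ⟨k + 1, by omega, ?_, hcard⟩
  have h1 := Finset.card_le_univ σ.support
  rw [Fintype.card_fin, hcard] at h1
  rw [mul_comm]
  exact h1

end Cfsg.Agent.Lib.Helper85.UP
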